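import Cfsg.Agent.H203.LSDef
import Cfsg.Agent.H419.EP.Big

/-!
# S3499-V: extraspecial groups `p ^ {1 + 2a}` in `GL_n(q)` (helper581)

`Heis p a x y z` : the relations of `p ^ {1 + 2a}`.
* `Heis.le_card` : `Heis p a x y z` in `GL(ι, F)`, `p ∤ q = |F|` : `p ^ a * ord_p(q) ≤ |ι|`;
* `Heis.le_card_socle` : the same for `Heis p a x y z` in `P / scalars`, `x i ^ p = 1`, `p ∤ q (q - 1)`;
* `Heis.mul_le` : the same, `p ^ a * e ≤ |ι|` if `q ^ j ≢ 1` modulo `p` for `0 < j < e`.
-/

set_option autoImplicit false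

namespace Cfsg.Agent.H581.EP

open Matrix
open scoped MatrixGroups

/-- the relations of an extraspecial group `p ^ {1 + 2a}` with the centre `⟨z⟩` -/
structure Heis {M : Type*} [Group M] (p a : ℕ) (x y : Fin a → M) (z : M) : Prop where
  xx : ∀ i j, x i * x j = x j * x i
  xz : ∀ i, x i * z = z * x i
  yz : ∀ i, y i * z = z * y i
  xy : ∀ i, x i * y i = z * (y i * x i)
  xy' : ∀ i j, i ≠ j → x i * y j = y j * x i
  zp : z ^ p = 1
  z1 : z ≠ 1

/-- `a = 1` -/
theorem Heis.one {M : Type*} [Group M] {p : ℕ} {x y z : M} (hxz : x * z = z * x) (hyz : y * z = z * y)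
    (hxy : x * y = z * (y * x)) (hz : z ^ p = 1) (hz1 : z ≠ 1) : Heis p 1 (fun _ => x) (fun _ => y) z :=
  ⟨fun _ _ => rfl, fun _ => hxz, fun _ => hyz, fun _ => hxy, fun i j hij => absurd (Subsingleton.elim i j) hij, hz, hz1⟩

section mat

variable {ι : Type} {F : Type} [Fintype ι] [DecidableEq ι] [Field F] [Fintype F]

theorem Heis.le_card {p a : ℕ} (hp : p.Prime) (hq : ¬ p ∣ Fintype.card F) {x y : Fin a → GL ι F} {z : GL ι F}
    (h : Heis p a x y z) : p ^ a * orderOf ((Fintype.card F : ℕ) : ZMod p) ≤ Fintype.card ι := by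
  classical
  have hpf := Fact.mk hp
  let L := AlgebraicClosure F
  let φ : F →+* L := algebraMap F L
  -- the operators
  let f : GL ι F → (ι → L) →ₗ[L] (ι → L) := fun g => (φ.mapMatrix (g : Matrix ι ι F)).mulVecLin
  have hfa : ∀ g v i, f g v i = ∑ j, φ ((g : Matrix ι ι F) i j) * v j := fun g v i => rfl
  have hfm : ∀ g g', f (g * g') = f g * f g' := by
    intro g g'
    show (φ.mapMatrix ((g * g' : GL ι F) : Matrix ι ι F)).mulVecLin = _
    rw [Units.val_mul, map_mul, Matrix.mulVecLin_mul]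
    rfl
  have hf1 : f 1 = 1 := by
    show (φ.mapMatrix ((1 : GL ι F) : Matrix ι ι F)).mulVecLin = _
    rw [Units.val_one, map_one, Matrix.mulVecLin_one]
    rfl
  have hfi : Function.Injective f := by
    intro g g' hgg
    apply Units.ext
    ext i j
    have h1 : f g (Pi.single j 1) i = f g' (Pi.single j 1) i := by rw [hgg]
    rw [hfa, hfa, Finset.sum_eq_single j (fun k _ hk => by rw [Pi.single_eq_of_ne hk, mul_zero])
      (fun hj => absurd (Finset.mem_univ j) hj), Finset.sum_eq_single j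
      (fun k _ hk => by rw [Pi.single_eq_of_ne hk, mul_zero]) (fun hj => absurd (Finset.mem_univ j) hj),
      Pi.single_eq_same, mul_one, mul_one] at h1
    exact φ.injective h1
  have hf0 : ∀ g v, v ≠ 0 → f g v ≠ 0 := by
    intro g v hv hgv
    apply hv
    have h1 : f (g⁻¹ * g) v = 0 := by rw [hfm, Module.End.mul_apply, hgv, map_zero]
    rwa [inv_mul_cancel, hf1, Module.End.one_apply] at h1
  have hfp : ∀ g (n : ℕ), f (g ^ n) = f g ^ n := by
    intro g n
    induction n with
    | zero => rw [pow_zero, pow_zero, hf1]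
    | succ n ih => rw [pow_succ, pow_succ, hfm, ih]
  -- the characteristic
  obtain ⟨ℓ, hℓ⟩ := CharP.exists F
  obtain ⟨m, hℓp, hcard⟩ := FiniteField.card F ℓ
  have := Fact.mk hℓp
  have hℓL : CharP L ℓ := charP_of_injective_algebraMap φ.injective ℓ
  have hpℓ : ¬ ℓ ∣ p := by
    intro hd
    have h1 := (Nat.prime_dvd_prime_iff_eq hℓp hp).1 hd
    apply hq
    rw [hcard, ← h1]
    exact dvd_pow_self ℓ m.ne_zero
  have hpL : (p : L) ≠ 0 := by
    intro h0
    exact hpℓ ((CharP.cast_eq_zero_iff L ℓ p).1 h0)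
  -- the initial vector
  obtain ⟨v, χ, hv, hχ, hχ1⟩ := H203.LS.exists_weight (J := Option (Fin a))
    (fun j => f (j.elim z x)) (by
      intro i j
      rw [← hfm, ← hfm]
      congr 1
      cases i <;> cases j
      · rfl
      · exact (h.xz _).symm
      · exact h.xz _
      · exact h.xx _ _) (j0 := none) (N := p) hpL (by
      show f z ^ p = 1
      rw [← hfp, h.zp, hf1]) (by
      show f z ≠ 1
      rw [← hf1]
      exact fun e => h.z1 (hfi e))
  set ζ := χ none with hζ
  have hvz : f z v = ζ • v := hχ none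
  have hvx : ∀ i, f (x i) v = χ (some i) • v := fun i => hχ (some i)
  have hζp : ζ ^ p = 1 := by
    have h1 : ∀ n : ℕ, (f z ^ n) v = ζ ^ n • v := by
      intro n
      induction n with
      | zero => simp
      | succ n ih => rw [pow_succ', Module.End.mul_apply, ih, map_smul, hvz, smul_smul, pow_succ]
    have h2 := h1 p
    rw [← hfp, h.zp, hf1, Module.End.one_apply] at h2
    have h3 : (ζ ^ p - 1) • v = 0 := by rw [sub_smul, one_smul, ← h2, sub_self]
    exact sub_eq_zero.1 ((smul_eq_zero.1 h3).resolve_right hv)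
  have hζo : orderOf ζ = p := orderOf_eq_prime hζp hχ1
  have hζ0 : ζ ≠ 0 := by
    intro h0
    rw [h0, zero_pow hp.ne_zero] at hζp
    exact zero_ne_one hζp
  have hζm : ∀ m n : ℕ, ζ ^ m = ζ ^ n → m ≡ n [MOD p] := by
    intro m n hmn
    let u : Lˣ := Units.mk0 ζ hζ0
    have h1 : orderOf u = p := by rw [← hζo, ← orderOf_units]; rfl
    have h2 : u ^ m = u ^ n := by
      apply Units.ext
      rw [Units.val_pow_eq_pow_val, Units.val_pow_eq_pow_val]
      exact hmn
    have h3 := pow_eq_pow_iff_modEq.1 h2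
    rwa [h1] at h3
  have hχ0 : ∀ i, χ (some i) ≠ 0 := by
    intro i h0
    have h1 := hvx i
    rw [h0, zero_smul] at h1
    exact hf0 _ _ hv h1
  -- the vectors
  have hw : ∀ (s : ℕ) (k : Fin a → ℕ), ∑ i, k i = s → ∃ w : ι → L, w ≠ 0 ∧ f z w = ζ • w ∧
      ∀ i, f (x i) w = (ζ ^ (k i) * χ (some i)) • w := by
    intro s
    induction s with
    | zero =>
      intro k hk
      refine ⟨v, hv, hvz, fun i => ?_⟩
      have h1 : k i = 0 := by
        have := Finset.sum_eq_zero_iff.1 hk i (Finset.mem_univ i)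
        exact this
      rw [h1, pow_zero, one_mul]
      exact hvx i
    | succ s ih =>
      intro k hk
      obtain ⟨j, -, hj⟩ : ∃ j ∈ Finset.univ, k j ≠ 0 := by
        by_contra hcon
        push Not at hcon
        rw [Finset.sum_eq_zero hcon] at hk
        omega
      obtain ⟨w, hw0, hwz, hwx⟩ := ih (Function.update k j (k j - 1)) (by
        have h1 : ∑ i, k i = k j + ∑ i ∈ Finset.univ.erase j, k i := (Finset.add_sum_erase _ _ (Finset.mem_univ j)).symm
        have h2 : ∑ i, Function.update k j (k j - 1) i = (k j - 1) + ∑ i ∈ Finset.univ.erase j, k i := by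
          rw [← Finset.add_sum_erase _ _ (Finset.mem_univ j), Function.update_self]
          congr 1
          apply Finset.sum_congr rfl
          intro i hi
          rw [Function.update_of_ne (Finset.ne_of_mem_erase hi)]
        omega)
      refine ⟨f (y j) w, hf0 _ _ hw0, ?_, fun i => ?_⟩
      · rw [← Module.End.mul_apply, ← hfm, ← h.yz, hfm, Module.End.mul_apply, hwz, map_smul]
      · by_cases hij : i = j
        · subst hij
          rw [← Module.End.mul_apply, ← hfm, h.xy, hfm, hfm, Module.End.mul_apply, Module.End.mul_apply, hwx, map_smul,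
            map_smul, ← Module.End.mul_apply, ← hfm, ← h.yz, hfm, Module.End.mul_apply, hwz, map_smul, smul_smul,
            Function.update_self]
          congr 1
          obtain ⟨t, ht⟩ : ∃ t, k i = t + 1 := ⟨k i - 1, by omega⟩
          rw [ht, Nat.add_sub_cancel, pow_succ]
          ring
        · rw [← Module.End.mul_apply, ← hfm, h.xy' i j hij, hfm, Module.End.mul_apply, hwx, map_smul,
            Function.update_of_ne hij]
  -- the Frobenius
  have hΦ : ∀ (j : ℕ) (w : ι → L), w ≠ 0 → ∃ w' : ι → L, w' ≠ 0 ∧ ∀ (g : GL ι F) (c : L), f g w = c • w →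
      f g w' = c ^ (Fintype.card F ^ j) • w' := by
    intro j w hw0
    let σ : L →+* L := iterateFrobenius L ℓ (m * j)
    have hσ : ∀ c : L, σ c = c ^ (Fintype.card F ^ j) := by
      intro c
      show iterateFrobenius L ℓ (m * j) c = _
      rw [iterateFrobenius_def, hcard, pow_mul]
    have hσφ : ∀ c : F, σ (φ c) = φ c := by
      intro c
      rw [hσ, ← map_pow, FiniteField.pow_card_pow]
    refine ⟨fun i => σ (w i), ?_, ?_⟩
    · intro h0
      apply hw0
      funext i
      have h1 : σ (w i) = 0 := congrFun h0 i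
      exact (map_eq_zero σ).1 h1
    · intro g c hgc
      funext i
      have h1 := congrArg σ (congrFun hgc i)
      rw [hfa, map_sum] at h1
      rw [hfa]
      rw [Pi.smul_apply, smul_eq_mul, map_mul, hσ c] at h1
      rw [Pi.smul_apply, smul_eq_mul, ← h1]
      apply Finset.sum_congr rfl
      intro k _
      rw [map_mul, hσφ]
  choose! W hW0 hWz hWx using fun k : Fin a → Fin p => hw _ (fun i => (k i : ℕ)) rfl
  choose! V hV0 hV using hΦ
  set e := orderOf ((Fintype.card F : ℕ) : ZMod p) with he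
  have key := H203.LS.card_le_of_weights (k := L) (V := ι → L) (ι := (Fin a → Fin p) × Fin e) (J := Option (Fin a))
    (fun j => f (j.elim z x)) (fun t => V (t.2 : ℕ) (W t.1))
    (fun t j => j.elim (ζ ^ (Fintype.card F ^ (t.2 : ℕ))) fun i => (ζ ^ (t.1 i : ℕ) * χ (some i)) ^ (Fintype.card F ^ (t.2 : ℕ)))
    (fun t => hV0 _ _ (hW0 _)) (by
      intro t j
      cases j with
      | none => exact hV _ _ (hW0 _) _ _ (hWz _)
      | some i => exact hV _ _ (hW0 _) _ _ (hWx _ i)) (by
      rintro ⟨k, j⟩ ⟨k', j'⟩ hkj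
      have h1 : ζ ^ (Fintype.card F ^ (j : ℕ)) = ζ ^ (Fintype.card F ^ (j' : ℕ)) := congrFun hkj none
      have h2 : ∀ i, (ζ ^ (k i : ℕ) * χ (some i)) ^ (Fintype.card F ^ (j : ℕ)) =
          (ζ ^ (k' i : ℕ) * χ (some i)) ^ (Fintype.card F ^ (j' : ℕ)) := fun i => congrFun hkj (some i)
      have h3 : j = j' := by
        have h4 : Fintype.card F ^ (j : ℕ) ≡ Fintype.card F ^ (j' : ℕ) [MOD p] := hζm _ _ h1
        have h5 := (ZMod.natCast_eq_natCast_iff _ _ _).2 h4
        rw [Nat.cast_pow, Nat.cast_pow] at h5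
        have h6 : ((Fintype.card F : ℕ) : ZMod p) ≠ 0 := by
          intro h0
          exact hq ((ZMod.natCast_eq_zero_iff _ _).1 h0)
        let u : (ZMod p)ˣ := Units.mk0 _ h6
        have h7 : u ^ (j : ℕ) = u ^ (j' : ℕ) := by
          apply Units.ext
          rw [Units.val_pow_eq_pow_val, Units.val_pow_eq_pow_val]
          exact h5
        have h8 : orderOf u = e := by rw [he, ← orderOf_units]; rfl
        have h9 := pow_inj_mod.1 h7
        rw [h8, Nat.mod_eq_of_lt j.2, Nat.mod_eq_of_lt j'.2] at h9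
        exact Fin.ext h9
      subst h3
      congr 1
      funext i
      have h4 := h2 i
      have h5 : ζ ^ (k i : ℕ) * χ (some i) = ζ ^ (k' i : ℕ) * χ (some i) := by
        have hinj : Function.Injective (iterateFrobenius L ℓ (m * j)) := RingHom.injective _
        apply hinj
        rw [iterateFrobenius_def, iterateFrobenius_def, pow_mul, ← hcard]
        exact h4
      have h6 := mul_right_cancel₀ (hχ0 i) h5
      have h7 : (k i : ℕ) ≡ (k' i : ℕ) [MOD p] := hζm _ _ h6
      have h8 := Nat.ModEq.eq_of_lt_of_lt h7 (k i).2 (k' i).2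
      exact Fin.ext h8)
  rw [Nat.card_prod, Nat.card_eq_fintype_card, Nat.card_eq_fintype_card, Fintype.card_fun, Fintype.card_fin,
    Fintype.card_fin, Fintype.card_fin, Module.finrank_pi] at key
  exact key

end mat

/-! ### lifting from `P / scalars` -/

section lift

theorem Heis.map {M N : Type*} [Group M] [Group N] {p a : ℕ} {x y : Fin a → M} {z : M} (h : Heis p a x y z)
    (f : M →* N) (hf : Function.Injective f) : Heis p a (fun i => f (x i)) (fun i => f (y i)) (f z) :=
  ⟨fun i j => by rw [← map_mul, h.xx, map_mul], fun i => by rw [← map_mul, h.xz, map_mul],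
    fun i => by rw [← map_mul, h.yz, map_mul], fun i => by rw [← map_mul, h.xy, map_mul, map_mul],
    fun i j hij => by rw [← map_mul, h.xy' i j hij, map_mul], by rw [← map_pow, h.zp, map_one],
    fun e => h.z1 (hf (by rw [e, map_one]))⟩

theorem pow_of_comm {G : Type*} [Group G] {p : ℕ} {a b c : G} (ha : a ^ p = 1) (hca : c * a = a * c)
    (h : a * b = c * (b * a)) : c ^ p = 1 := by
  have h1 : b * a * b⁻¹ = c⁻¹ * a := by
    rw [mul_inv_eq_iff_eq_mul, mul_assoc, h, inv_mul_cancel_left]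
  have h2 : (b * a * b⁻¹) ^ p = 1 := by rw [conj_pow, ha, mul_one, mul_inv_cancel]
  have h3 : Commute c⁻¹ a := Commute.inv_left hca
  rw [h1, h3.mul_pow, ha, mul_one, inv_pow, inv_eq_one] at h2
  exact h2

theorem eq_one_of_pow {G : Type*} [Group G] {p m : ℕ} (hpm : Nat.Coprime p m) {s : G} (hs : s ^ m = 1)
    (h : s ^ p = 1) : s = 1 := by
  have h1 : orderOf s ∣ p := orderOf_dvd_of_pow_eq_one h
  have h2 : orderOf s ∣ m := orderOf_dvd_of_pow_eq_one hs
  exact orderOf_eq_one_iff.1 (Nat.dvd_one.1 (hpm ▸ Nat.dvd_gcd h1 h2))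

/-- an element of order `p` lifts to an element of order `p` -/
theorem exists_lift_pow {G : Type*} [Group G] {Z : Subgroup G} [Z.Normal] {p m : ℕ} (hpm : Nat.Coprime p m)
    (hm : ∀ s ∈ Z, s ^ m = 1) {g : G ⧸ Z} (hg : g ^ p = 1) : ∃ g' : G, (g' : G ⧸ Z) = g ∧ g' ^ p = 1 := by
  obtain ⟨g0, rfl⟩ := QuotientGroup.mk_surjective g
  obtain ⟨k, hk1, hk2⟩ := Nat.chineseRemainder hpm 1 0
  refine ⟨g0 ^ k, ?_, ?_⟩
  · rw [QuotientGroup.mk_pow]
    have h1 : (g0 : G ⧸ Z) ^ k = (g0 : G ⧸ Z) ^ 1 := by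
      rw [pow_eq_pow_iff_modEq]
      exact hk1.of_dvd (orderOf_dvd_of_pow_eq_one hg)
    rw [h1, pow_one]
  · obtain ⟨t, rfl⟩ := (Nat.modEq_zero_iff_dvd).1 hk2
    have h1 : g0 ^ p ∈ Z := by
      rw [← QuotientGroup.eq_one_iff, QuotientGroup.mk_pow]
      exact hg
    have h2 := hm _ h1
    calc (g0 ^ (m * t)) ^ p = ((g0 ^ p) ^ m) ^ t := by
          rw [← pow_mul, ← pow_mul, ← pow_mul]
          congr 1
          ring
      _ = 1 := by rw [h2, one_pow]

theorem Heis.lift {G : Type*} [Group G] {Z : Subgroup G} [Z.Normal] (hZ : ∀ s ∈ Z, ∀ g : G, s * g = g * s) {p m a : ℕ}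
    (hpm : Nat.Coprime p m) (hm : ∀ s ∈ Z, s ^ m = 1) {x y : Fin a → G ⧸ Z} {z : G ⧸ Z} (h : Heis p a x y z)
    (hx : ∀ i, x i ^ p = 1) : ∃ (x' y' : Fin a → G) (z' : G), Heis p a x' y' z' := by
  have hx' : ∀ i, ∃ g' : G, (g' : G ⧸ Z) = x i ∧ g' ^ p = 1 := fun i => exists_lift_pow hpm hm (hx i)
  choose x' hx1 hx2 using hx'
  obtain ⟨z', hz1, hz2⟩ := exists_lift_pow hpm hm h.zp
  have hy' : ∀ i, ∃ g' : G, (g' : G ⧸ Z) = y i := fun i => QuotientGroup.mk_surjective (y i)
  choose y' hy1 using hy'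
  -- the tool
  have tool : ∀ u v : G, u ^ p = 1 → (u : G ⧸ Z) * v = v * u → u * v = v * u := by
    intro u v hu huv
    have hc : (u * v) * (v * u)⁻¹ ∈ Z := by
      rw [← QuotientGroup.eq_one_iff, QuotientGroup.mk_mul, QuotientGroup.mk_inv, QuotientGroup.mk_mul,
        QuotientGroup.mk_mul, huv, mul_inv_cancel]
    have h1 : ((u * v) * (v * u)⁻¹) ^ p = 1 := pow_of_comm (a := u) (b := v) hu (hZ _ hc u) (by group)
    have h2 := eq_one_of_pow hpm (hm _ hc) h1
    rw [mul_inv_eq_one] at h2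
    exact h2
  have hxz : ∀ i, x' i * z' = z' * x' i := fun i => tool _ _ (hx2 i) (by rw [hx1, hz1, h.xz])
  refine ⟨x', y', z', ⟨fun i j => tool _ _ (hx2 i) (by rw [hx1, hx1, h.xx]), hxz,
    fun i => (tool _ _ hz2 (by rw [hy1, hz1, h.yz])).symm, fun i => ?_,
    fun i j hij => tool _ _ (hx2 i) (by rw [hx1, hy1, h.xy' i j hij]), hz2, ?_⟩⟩
  · set c := (x' i * y' i) * (y' i * x' i)⁻¹ with hc
    have h1 : z'⁻¹ * c ∈ Z := by
      rw [← QuotientGroup.eq_one_iff, hc, QuotientGroup.mk_mul, QuotientGroup.mk_mul, QuotientGroup.mk_inv,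
        QuotientGroup.mk_inv, QuotientGroup.mk_mul, QuotientGroup.mk_mul, hx1, hy1, hz1, h.xy]
      group
    have h2 : x' i * y' i = c * (y' i * x' i) := by rw [hc, inv_mul_cancel_right]
    have h3 : c * x' i = x' i * c := by
      have h4 : c = z' * (z'⁻¹ * c) := by group
      rw [h4, mul_assoc, hZ _ h1, ← mul_assoc, ← hxz, mul_assoc]
    have h4 := pow_of_comm (hx2 i) h3 h2
    have h5 : (z'⁻¹ * c) ^ p = 1 := by
      have h6 : Commute (z'⁻¹ * c) z' := hZ _ h1 z'
      have h7 : Commute z'⁻¹ c := by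
        have h8 : Commute z' c := by
          have h9 : c = z' * (z'⁻¹ * c) := by group
          rw [h9]
          exact (Commute.refl z').mul_right h6.symm
        exact h8.inv_left
      rw [h7.mul_pow, h4, inv_pow, hz2, inv_one, mul_one]
    have h6 := eq_one_of_pow hpm (hm _ h1) h5
    rw [inv_mul_eq_one] at h6
    rw [h2, ← h6]
  · intro e
    apply h.z1
    rw [← hz1, e, QuotientGroup.mk_one]

end lift

variable {ι : Type} {F : Type} [Fintype ι] [DecidableEq ι] [Field F] [Fintype F]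

omit [Fintype F] in
theorem scalars_comm' {s : GL ι F} (hs : s ∈ Cfsg.Geo.scalars ι F) (g : GL ι F) : s * g = g * s := by
  obtain ⟨c, hc⟩ := (Cfsg.Geo.mem_scalars_iff s).1 hs
  apply Units.ext
  rw [Units.val_mul, Units.val_mul, hc, smul_mul_assoc, one_mul, mul_smul_comm, mul_one]

theorem scalars_pow {s : GL ι F} (hs : s ∈ Cfsg.Geo.scalars ι F) : s ^ (Fintype.card F - 1) = 1 := by
  obtain ⟨c, hc⟩ := (Cfsg.Geo.mem_scalars_iff s).1 hs
  apply Units.ext
  rw [Units.val_pow_eq_pow_val, hc, smul_pow, one_pow, FiniteField.pow_card_sub_one_eq_one _ c.ne_zero, one_smul,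
    Units.val_one]

/-- **`p ^ {1 + 2a}` in `P / scalars`**: `p ^ a * ord_p(q) ≤ n`. -/
theorem Heis.le_card_socle {p a : ℕ} (hp : p.Prime) (hq : ¬ p ∣ Fintype.card F) (hq1 : ¬ p ∣ Fintype.card F - 1)
    {P : Subgroup (GL ι F)} {x y : Fin a → H419.EP.socle P} {z : H419.EP.socle P} (h : Heis p a x y z)
    (hx : ∀ i, x i ^ p = 1) : p ^ a * orderOf ((Fintype.card F : ℕ) : ZMod p) ≤ Fintype.card ι := by
  obtain ⟨x', y', z', h'⟩ := Heis.lift (m := Fintype.card F - 1) (Z := (Cfsg.Geo.scalars ι F).subgroupOf P) (by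
    rintro ⟨s, hs'⟩ hs ⟨g, hg⟩
    exact Subtype.ext (scalars_comm' hs g)) ((Nat.Prime.coprime_iff_not_dvd hp).2 hq1) (by
    rintro ⟨s, hs'⟩ hs
    exact Subtype.ext (scalars_pow hs)) h hx
  exact (h'.map P.subtype P.subtype_injective).le_card hp hq

/-- lower bound for `ord_p(q)` -/
theorem le_orderOf {p q e : ℕ} (hp : p.Prime) (hq : ¬ p ∣ q) (h : ∀ j, 0 < j → j < e → q ^ j % p ≠ 1) :
    e ≤ orderOf ((q : ℕ) : ZMod p) := by
  have := Fact.mk hp
  have h6 : ((q : ℕ) : ZMod p) ≠ 0 := by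
    intro h0
    exact hq ((ZMod.natCast_eq_zero_iff _ _).1 h0)
  have h8 : orderOf (Units.mk0 _ h6) = orderOf ((q : ℕ) : ZMod p) := by rw [← orderOf_units]; rfl
  have h9 : 0 < orderOf ((q : ℕ) : ZMod p) := by
    rw [← h8]
    exact orderOf_pos _
  by_contra hlt
  push Not at hlt
  apply h _ h9 hlt
  have h10 := pow_orderOf_eq_one ((q : ℕ) : ZMod p)
  have h11 : ((q ^ orderOf ((q : ℕ) : ZMod p) : ℕ) : ZMod p) = ((1 : ℕ) : ZMod p) := by
    rw [Nat.cast_pow, Nat.cast_one]
    exact h10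
  have h12 := (ZMod.natCast_eq_natCast_iff _ _ _).1 h11
  rw [Nat.ModEq, Nat.mod_eq_of_lt hp.one_lt] at h12
  exact h12

/-- the form to be used: `q ^ j ≢ 1` mod `p` for `0 < j < e` -/
theorem Heis.mul_le {p a e : ℕ} (hp : p.Prime) (hq : ¬ p ∣ Fintype.card F) (he : 2 ≤ e)
    (hj : ∀ j, 0 < j → j < e → Fintype.card F ^ j % p ≠ 1)
    {P : Subgroup (GL ι F)} {x y : Fin a → H419.EP.socle P} {z : H419.EP.socle P} (h : Heis p a x y z)
    (hx : ∀ i, x i ^ p = 1) : p ^ a * e ≤ Fintype.card ι := by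
  refine le_trans (Nat.mul_le_mul_left _ (le_orderOf hp hq hj)) (h.le_card_socle hp hq ?_ hx)
  intro hd
  apply hj 1 one_pos he
  rw [pow_one]
  obtain ⟨t, ht⟩ := hd
  have h1 : 0 < Fintype.card F := Fintype.card_pos
  have h2 : Fintype.card F = 1 + p * t := by omega
  rw [h2, Nat.add_mul_mod_self_left, Nat.mod_eq_of_lt hp.one_lt]

end Cfsg.Agent.H581.EP
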